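import Cfsg.Agent.H396.TwoCyc.Orders

/-!
# TEAM TWOCYC: self-centralizing elements of prime order in small groups (helper396)

* `CP X p` : the elements of order `p` generate their centralizers;
* `exists_d` : the number of Sylow subgroups;
* `no_comp` : Burnside's transfer and Frattini's argument.
-/

set_option autoImplicit false

namespace Cfsg.Agent.H396.TwoCyc

open Subgroup

universe u v

theorem card_dvd_factorial {S : Type u} [Group S] [Finite S] [IsSimpleGroup S] (H : Subgroup S) (hH : H ≠ ⊤) :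
    Nat.card S ∣ H.index.factorial := by
  have hker : (MulAction.toPermHom S (S ⧸ H)).ker = ⊥ := by
    rcases (inferInstance : (MulAction.toPermHom S (S ⧸ H)).ker.Normal).eq_bot_or_eq_top with h | h
    · exact h
    · exfalso
      apply hH
      rw [eq_top_iff, ← h, ← Subgroup.normalCore_eq_ker]
      exact H.normalCore_le
  have h1 := Subgroup.card_dvd_of_injective (MulAction.toPermHom S (S ⧸ H)) ((MonoidHom.ker_eq_bot_iff _).1 hker)
  rwa [Nat.card_perm] at h1

theorem index_ge {S : Type u} [Group S] [Finite S] [IsSimpleGroup S] {p : ℕ} (hp : p.Prime) (hS : p ∣ Nat.card S)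
    (H : Subgroup S) (hH : H ≠ ⊤) : p ≤ H.index :=
  (hp.dvd_factorial).1 (hS.trans (card_dvd_factorial H hH))

/-- The elements of order `p` generate their centralizers. -/
def CP (X : Type u) [Group X] (p : ℕ) : Prop := ∀ x y : X, orderOf x = p → x * y = y * x → y ∈ zpowers x

theorem CP.of_injective {X : Type u} {Y : Type v} [Group X] [Group Y] {p : ℕ} (h : CP X p) (f : Y →* X)
    (hf : Function.Injective f) : CP Y p := by
  intro x y hx hxy
  have h1 := h (f x) (f y) (by rw [orderOf_injective f hf, hx]) (by rw [← map_mul, hxy, map_mul])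
  obtain ⟨k, hk⟩ := h1
  refine ⟨k, hf ?_⟩
  rw [← hk]
  exact map_zpow f x k

theorem CP.sub {X : Type u} [Group X] {p : ℕ} (h : CP X p) (K : Subgroup X) : CP K p :=
  h.of_injective K.subtype K.subtype_injective

theorem cp_perm {m p : ℕ} (hp : p.Prime) (h1 : m ≤ p + 1) (h3 : 3 ≤ p) : CP (Equiv.Perm (Fin m)) p := by
  intro x y hx hxy
  have h := card_centralizer hp h1 hx h3
  have hle : zpowers x ≤ centralizer {x} := by
    rw [zpowers_le]
    exact mem_centralizer_singleton_iff.2 rfl
  have heq : zpowers x = centralizer {x} :=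
    eq_of_le_of_card_ge hle (by rw [h, Nat.card_zpowers, hx])
  rw [heq]
  exact mem_centralizer_singleton_iff.2 hxy.symm

variable {X : Type u} [Group X] [Finite X] {p : ℕ}

/-- the normalizer of a self-centralizing subgroup of order `p` -/
theorem card_norm (hp : p.Prime) (h : CP X p) (Q : Subgroup X) (hQ : Nat.card Q = p) :
    ∃ d, d ∣ p - 1 ∧ Nat.card (normalizer (Q : Set X)) = p * d := by
  have : Fact p.Prime := ⟨hp⟩
  have hcyc : IsCyclic Q := isCyclic_of_prime_card hQ
  obtain ⟨x, hx⟩ := hcyc.exists_generator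
  have hxo : orderOf x = p := by
    rw [orderOf_eq_card_of_forall_mem_zpowers hx, hQ]
  have hxo' : orderOf (x : X) = p := by rw [Subgroup.orderOf_coe, hxo]
  have hcomm : ∀ a b : Q, a * b = b * a := by
    intro a b
    obtain ⟨i, rfl⟩ := hx a
    obtain ⟨j, rfl⟩ := hx b
    exact (Commute.zpow_zpow_self x i j).eq
  have hcent : centralizer (Q : Set X) = Q := by
    apply le_antisymm
    · intro y hy
      have h1 := h x y hxo' (mem_centralizer_iff.1 hy x x.2)
      have h2 : zpowers (x : X) ≤ Q := by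
        rw [zpowers_le]
        exact x.2
      exact h2 h1
    · intro y hy
      rw [mem_centralizer_iff]
      intro z hz
      exact congrArg Subtype.val (hcomm ⟨z, hz⟩ ⟨y, hy⟩)
  have h1 := (Q.normalizerMonoidHom).ker.card_mul_index
  rw [normalizerMonoidHom_ker, hcent] at h1
  have h2 : Nat.card (Q.subgroupOf (normalizer (Q : Set X))) = p := by
    rw [← hQ]
    exact Nat.card_congr (subgroupOfEquivOfLe le_normalizer).toEquiv
  rw [h2] at h1
  refine ⟨_, ?_, h1.symm⟩
  have h3 : (Q.normalizerMonoidHom).ker.index = Nat.card (Q.normalizerMonoidHom).range := index_ker _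
  rw [normalizerMonoidHom_ker, hcent] at h3
  rw [h3]
  have h4 := (Q.normalizerMonoidHom).range.card_subgroup_dvd_card
  rwa [IsCyclic.card_mulAut, hQ, Nat.totient_prime hp] at h4

theorem sylow_one (hp : p.Prime) (P : Subgroup X) (hP : IsPGroup p P) (hi : ¬ p ∣ P.index) :
    (normalizer (P : Set X)).index % p = 1 := by
  have : Fact p.Prime := ⟨hp⟩
  have h1 := card_sylow_modEq_one p X
  have h2 := (hP.toSylow hi).card_eq_index_normalizer
  rw [h2] at h1
  have h3 : ((hP.toSylow hi : Sylow p X) : Set X) = (P : Set X) := by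
    ext x
    exact IsPGroup.mem_toSylow hP hi
  rw [h3] at h1
  have h4 : 1 % p = 1 := Nat.mod_eq_of_lt hp.one_lt
  rw [← h4]
  exact h1

theorem exists_d (hp : p.Prime) (h : CP X p) {r : ℕ} (hX : Nat.card X = p * r) (hr : ¬ p ∣ r) (Q : Subgroup X)
    (hQ : Nat.card Q = p) :
    ∃ d s, d ∣ p - 1 ∧ Nat.card (normalizer (Q : Set X)) = p * d ∧ r = d * s ∧ s % p = 1 := by
  obtain ⟨d, h1, h2⟩ := card_norm hp h Q hQ
  have h3 := (normalizer (Q : Set X)).card_mul_index
  rw [h2, hX, mul_assoc] at h3
  have h4 := Nat.eq_of_mul_eq_mul_left hp.pos h3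
  have h5 : Q.index = r := by
    have h6 := Q.card_mul_index
    rw [hQ, hX] at h6
    exact Nat.eq_of_mul_eq_mul_left hp.pos h6
  refine ⟨d, _, h1, h2, h4.symm, sylow_one hp Q ?_ (by rw [h5]; exact hr)⟩
  have : Fact p.Prime := ⟨hp⟩
  exact IsPGroup.of_card (n := 1) (by rw [hQ, pow_one])

theorem exists_sub (hp : p.Prime) (h : p ∣ Nat.card X) : ∃ Q : Subgroup X, Nat.card Q = p := by
  have : Fact p.Prime := ⟨hp⟩
  obtain ⟨x, hx⟩ := exists_prime_orderOf_dvd_card' p h
  exact ⟨zpowers x, by rw [Nat.card_zpowers, hx]⟩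

/-- Burnside's transfer and Frattini's argument -/
theorem no_comp (hp : p.Prime) (h : CP X p) {q r : ℕ} (hq : q.Prime) (hqp : q ≠ p) (hX : Nat.card X = p * r)
    (hr : ¬ p ∣ r) (hqr : q ∣ r) (hqr2 : ¬ q * q ∣ r) (hpq : ¬ p ∣ q - 1)
    (hd : ∀ d s, d ∣ p - 1 → r = d * s → s % p = 1 → d = 1) : False := by
  have : Fact p.Prime := ⟨hp⟩
  have : Fact q.Prime := ⟨hq⟩
  obtain ⟨Q, hQ⟩ := exists_sub (X := X) hp ⟨r, hX⟩
  obtain ⟨d, s, h1, h2, h3, h4⟩ := exists_d hp h hX hr Q hQ
  have hd1 := hd d s h1 h3 h4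
  rw [hd1, mul_one] at h2
  have hNQ : normalizer (Q : Set X) = Q :=
    (eq_of_le_of_card_ge le_normalizer (by rw [h2, hQ])).symm
  have hcomm : ∀ a b : Q, a * b = b * a := by
    have hcyc : IsCyclic Q := isCyclic_of_prime_card hQ
    obtain ⟨x, hx⟩ := hcyc.exists_generator
    intro a b
    obtain ⟨i, rfl⟩ := hx a
    obtain ⟨j, rfl⟩ := hx b
    exact (Commute.zpow_zpow_self x i j).eq
  have hidx : Q.index = r := by
    have h6 := Q.card_mul_index
    rw [hQ, hX] at h6
    exact Nat.eq_of_mul_eq_mul_left hp.pos h6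
  let P : Sylow p X := (IsPGroup.of_card (n := 1) (by rw [hQ, pow_one]) : IsPGroup p Q).toSylow (by rw [hidx]; exact hr)
  have hPQ : (P : Subgroup X) = Q := IsPGroup.toSylow_coe _ _
  have hP : normalizer (P : Set X) ≤ centralizer (P : Set X) := by
    have h5 : (P : Set X) = (Q : Set X) := by
      ext x
      exact IsPGroup.mem_toSylow _ _
    rw [h5, hNQ]
    intro y hy
    rw [mem_centralizer_iff]
    intro z hz
    exact congrArg Subtype.val (hcomm ⟨z, hz⟩ ⟨y, hy⟩)
  have hcompl := MonoidHom.ker_transferSylow_isComplement' P hP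
  obtain ⟨N, hN⟩ : ∃ N, N = (MonoidHom.transferSylow P hP).ker := ⟨_, rfl⟩
  have hNn : N.Normal := by rw [hN]; infer_instance
  have hNc : Nat.card N = r := by
    have h5 := hcompl.card_mul_card
    rw [← hN, hPQ, hQ, hX, mul_comm] at h5
    exact Nat.eq_of_mul_eq_mul_left hp.pos h5
  -- a Sylow `q`-subgroup of the complement
  let S : Sylow q N := default
  obtain ⟨S', hS'⟩ : ∃ S' : Subgroup X, S' = (S : Subgroup N).map N.subtype := ⟨_, rfl⟩
  have hSc : Nat.card (S : Subgroup N) = q := by
    rw [S.card_eq_multiplicity, hNc]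
    have h5 : r.factorization q = 1 := by
      have hr0 : r ≠ 0 := fun h0 => hr (by rw [h0]; exact dvd_zero p)
      have h6 : 1 ≤ r.factorization q := (hq.dvd_iff_one_le_factorization hr0).1 hqr
      have h7 : ¬ 2 ≤ r.factorization q := by
        intro h8
        apply hqr2
        rw [← sq]
        exact (hq.pow_dvd_iff_le_factorization hr0).2 h8
      omega
    rw [h5, pow_one]
  have hS'c : Nat.card S' = q := by
    rw [hS']
    exact (Nat.card_congr ((S : Subgroup N).equivMapOfInjective _ N.subtype_injective).toEquiv).symm.trans hSc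
  have hfr : normalizer (S' : Set X) ⊔ N = ⊤ := by
    rw [hS']
    exact Sylow.normalizer_sup_eq_top S
  have h7 : p ∣ Nat.card (normalizer (S' : Set X)) := by
    have h8 : p ∣ (N.relIndex (normalizer (S' : Set X))) := by
      have h9 : N.relIndex (normalizer (S' : Set X)) = N.index := by
        rw [← relIndex_sup_right, hfr, relIndex_top_right]
      rw [h9]
      have h10 := N.card_mul_index
      rw [hNc, hX, mul_comm] at h10
      have hr0 : 0 < r := Nat.pos_of_ne_zero (fun h0 => hr (by rw [h0]; exact dvd_zero p))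
      exact ⟨1, by rw [mul_one]; exact Nat.eq_of_mul_eq_mul_right hr0 h10⟩
    exact h8.trans (relIndex_dvd_card _ _)
  obtain ⟨x, hx⟩ := exists_prime_orderOf_dvd_card' p h7
  have hS'cyc : IsCyclic S' := isCyclic_of_prime_card hS'c
  have h8 : S'.normalizerMonoidHom x = 1 := by
    rw [← orderOf_eq_one_iff]
    have h9 : orderOf (S'.normalizerMonoidHom x) ∣ p := by
      rw [← hx]
      exact orderOf_map_dvd _ _
    have h10 : orderOf (S'.normalizerMonoidHom x) ∣ q - 1 := by
      have := orderOf_dvd_natCard (S'.normalizerMonoidHom x)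
      rwa [IsCyclic.card_mulAut, hS'c, Nat.totient_prime hq] at this
    rcases (Nat.dvd_prime hp).1 h9 with h11 | h11
    · exact h11
    · rw [h11] at h10
      exact absurd h10 hpq
  have h9 : x ∈ (S'.normalizerMonoidHom).ker := h8
  rw [normalizerMonoidHom_ker, mem_subgroupOf, mem_centralizer_iff] at h9
  obtain ⟨y, hy⟩ := exists_prime_orderOf_dvd_card' q (dvd_of_eq hS'c.symm)
  have h10 := h x y (by rw [Subgroup.orderOf_coe, hx]) (h9 y y.2).symm
  have h11 : orderOf (y : X) ∣ p := by
    rw [← hx, ← Subgroup.orderOf_coe]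
    exact orderOf_dvd_of_mem_zpowers h10
  rw [Subgroup.orderOf_coe, hy] at h11
  exact hqp ((Nat.prime_dvd_prime_iff_eq hq hp).1 h11)

end Cfsg.Agent.H396.TwoCyc
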